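import Cfsg.Agent.Lib.Helper17.E6I.DefsE
import Cfsg.Agent.Lib.Helper18.ChevOrder

set_option autoImplicit false

/-! Farm E6I (helper17, S2175), piece E8: the cascade (Weyl group words moving an orthogonal list of
roots to a standard one). -/

namespace Cfsg.Agent.Lib.Helper88.E6I

open Cfsg.Lie Cfsg.Agent.Lib.Helper18 Cfsg.Agent.Lib.Helper17 Cfsg.Agent.Lib.Helper36
  Cfsg.Agent.Lib.Helper6 Matrix Cfsg.Agent.Lib.Helper17.E6I

/-- climb: apply reflections of `S` increasing the index as long as possible -/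
def E8_climb (S : List ℕ) : ℕ → ℕ → List ℕ
  | 0, _ => []
  | fuel + 1, r =>
    match S.find? (fun i => decide (r < chevE6.reflectRoot i r)) with
    | none => []
    | some i => E8_climb S fuel (chevE6.reflectRoot i r) ++ [i]

theorem E8_T1 : ∀ r : Fin 72, wAct chevE6 (E8_climb [0, 1, 2, 3, 4, 5] 30 r) r = 71 ∧
    ∀ i ∈ E8_climb [0, 1, 2, 3, 4, 5] 30 r, i ∈ [0, 1, 2, 3, 4, 5] := by decide +kernel

theorem E8_T2 : ∀ r : Fin 72, chevE6.pairing 71 r = 0 →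
    wAct chevE6 (E8_climb [0, 2, 3, 4, 5] 30 r) r = 60 ∧
    ∀ i ∈ E8_climb [0, 2, 3, 4, 5] 30 r, i ∈ [0, 2, 3, 4, 5] := by decide +kernel

theorem E8_T3 : ∀ r : Fin 72, chevE6.pairing 71 r = 0 → chevE6.pairing 60 r = 0 →
    wAct chevE6 (E8_climb [2, 3, 4] 30 r) r = 44 ∧
    ∀ i ∈ E8_climb [2, 3, 4] 30 r, i ∈ [2, 3, 4] := by decide +kernel

theorem E8_T4 : ∀ r : Fin 72, chevE6.pairing 71 r = 0 → chevE6.pairing 60 r = 0 →
    chevE6.pairing 44 r = 0 →
    wAct chevE6 (E8_climb [3] 30 r) r = 39 ∧ ∀ i ∈ E8_climb [3] 30 r, i ∈ [3] := by decide +kernel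

theorem E8_T5 : ∀ r : Fin 72, chevE6.pairing 71 r = 0 → chevE6.pairing 60 r = 0 →
    chevE6.pairing 44 r = 0 → chevE6.pairing 39 r = 0 → False := by decide +kernel

theorem E8_F2 : ∀ i ∈ [0, 2, 3, 4, 5], chevE6.reflectRoot i 71 = 71 := by decide +kernel
theorem E8_F3 : ∀ i ∈ [2, 3, 4], chevE6.reflectRoot i 71 = 71 ∧ chevE6.reflectRoot i 60 = 60 := by
  decide +kernel
theorem E8_F4 : ∀ i ∈ [3], chevE6.reflectRoot i 71 = 71 ∧ chevE6.reflectRoot i 60 = 60 ∧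
    chevE6.reflectRoot i 44 = 44 := by decide +kernel

theorem E8_W2 : [71, 60].map (wAct chevE6 [2, 3, 1]) = [66, 68] := by decide +kernel
theorem E8_W3 : [71, 60, 44].map (wAct chevE6 [0, 2, 3, 1, 0]) = [55, 65, 67] := by decide +kernel
theorem E8_W4 : [71, 60, 44, 39].map (wAct chevE6 [5, 0, 2, 3, 4, 3, 2, 1, 3, 0, 2, 0])
    = [53, 37, 46, 42] := by decide +kernel

theorem E8_fix (S : List ℕ) (x : ℕ) (h : ∀ i ∈ S, chevE6.reflectRoot i x = x) (L : List ℕ)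
    (hL : ∀ i ∈ L, i ∈ S) : wAct chevE6 L x = x := by
  induction L with
  | nil => rfl
  | cons a L ih =>
    rw [wAct_cons, ih (fun i hi => hL i (by simp [hi])), h a (hL a (by simp))]

/-- the conclusion -/
def E8_Res (O : List ℕ) : Prop :=
  ∃ L : List ℕ, (∀ i ∈ L, i < 6) ∧
      ((O.map (wAct chevE6 L)).Perm [71] ∨ (O.map (wAct chevE6 L)).Perm [68, 66] ∨
        (O.map (wAct chevE6 L)).Perm [55, 65, 67] ∨ (O.map (wAct chevE6 L)).Perm [42, 53, 37, 46])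

theorem E8_Res_of_map {O : List ℕ} (L : List ℕ) (hL : ∀ i ∈ L, i < 6)
    (h : E8_Res (O.map (wAct chevE6 L))) : E8_Res O := by
  obtain ⟨L', hL', h'⟩ := h
  refine ⟨L' ++ L, ?_, ?_⟩
  · intro i hi
    rcases List.mem_append.1 hi with h1 | h1
    · exact hL' i h1
    · exact hL i h1
  · have e : O.map (wAct chevE6 (L' ++ L)) = (O.map (wAct chevE6 L)).map (wAct chevE6 L') := by
      rw [List.map_map]
      apply List.map_congr_left
      intro a _
      rw [wAct_append]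
      rfl
    rw [e]
    exact h'

/-- admissible lists -/
def E8_Adm (O : List ℕ) : Prop := O.Pairwise e6orth ∧ ∀ o ∈ O, o < 72

theorem E8_Adm_map {O : List ℕ} (h : E8_Adm O) (L : List ℕ) (hL : ∀ i ∈ L, i < 6) :
    E8_Adm (O.map (wAct chevE6 L)) := by
  have hT : Tab chevE6 := (tabs2_of_mem (D := chevE6) (by simp)).tab
  have hP : PairTab chevE6 := pairTab_of_mem (D := chevE6) (by simp)
  constructor
  · rw [List.pairwise_map]
    refine List.Pairwise.imp_of_mem ?_ h.1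
    intro a b ha hb hab
    show chevE6.pairing _ _ = 0
    rw [hP.wAct hT hL (h.2 a ha) (h.2 b hb)]
    exact hab
  · intro o ho
    obtain ⟨a, ha, rfl⟩ := List.mem_map.1 ho
    exact hT.wAct_lt hL (h.2 a ha)

theorem E8_lt6 {S L : List ℕ} (hS : ∀ i ∈ S, i < 6) (hL : ∀ i ∈ L, i ∈ S) : ∀ i ∈ L, i < 6 :=
  fun i hi => hS i (hL i hi)

theorem E8_s5 (O : List ℕ) (h : E8_Adm (71 :: 60 :: 44 :: 39 :: O)) :
    E8_Res (71 :: 60 :: 44 :: 39 :: O) := by
  cases O with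
  | nil =>
    refine ⟨[5, 0, 2, 3, 4, 3, 2, 1, 3, 0, 2, 0], by decide, Or.inr (Or.inr (Or.inr ?_))⟩
    rw [E8_W4]
    decide
  | cons e O =>
    exfalso
    obtain ⟨hp, hb⟩ := h
    have he : e < 72 := hb e (by simp)
    simp only [List.pairwise_cons] at hp
    exact E8_T5 ⟨e, he⟩ (hp.1 e (by simp)) (hp.2.1 e (by simp)) (hp.2.2.1 e (by simp))
      (hp.2.2.2.1 e (by simp))

theorem E8_s4 (O : List ℕ) (h : E8_Adm (71 :: 60 :: 44 :: O)) : E8_Res (71 :: 60 :: 44 :: O) := by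
  cases O with
  | nil =>
    refine ⟨[0, 2, 3, 1, 0], by decide, Or.inr (Or.inr (Or.inl ?_))⟩
    rw [E8_W3]
  | cons d O =>
    have hd : d < 72 := h.2 d (by simp)
    have hp := h.1
    simp only [List.pairwise_cons] at hp
    obtain ⟨h1, h2⟩ := E8_T4 ⟨d, hd⟩ (hp.1 d (by simp)) (hp.2.1 d (by simp)) (hp.2.2.1 d (by simp))
    have hL6 := E8_lt6 (S := [3]) (by decide) h2
    apply E8_Res_of_map _ hL6
    have hA := E8_Adm_map h _ hL6
    simp only [List.map_cons] at hA ⊢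
    rw [E8_fix [3] 71 (fun i hi => (E8_F4 i hi).1) _ h2,
      E8_fix [3] 60 (fun i hi => (E8_F4 i hi).2.1) _ h2,
      E8_fix [3] 44 (fun i hi => (E8_F4 i hi).2.2) _ h2, h1] at hA ⊢
    exact E8_s5 _ hA

theorem E8_s3 (O : List ℕ) (h : E8_Adm (71 :: 60 :: O)) : E8_Res (71 :: 60 :: O) := by
  cases O with
  | nil =>
    refine ⟨[2, 3, 1], by decide, Or.inr (Or.inl ?_)⟩
    rw [E8_W2]
    decide
  | cons d O =>
    have hd : d < 72 := h.2 d (by simp)
    have hp := h.1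
    simp only [List.pairwise_cons] at hp
    obtain ⟨h1, h2⟩ := E8_T3 ⟨d, hd⟩ (hp.1 d (by simp)) (hp.2.1 d (by simp))
    have hL6 := E8_lt6 (S := [2, 3, 4]) (by decide) h2
    apply E8_Res_of_map _ hL6
    have hA := E8_Adm_map h _ hL6
    simp only [List.map_cons] at hA ⊢
    rw [E8_fix [2, 3, 4] 71 (fun i hi => (E8_F3 i hi).1) _ h2,
      E8_fix [2, 3, 4] 60 (fun i hi => (E8_F3 i hi).2) _ h2, h1] at hA ⊢
    exact E8_s4 _ hA

theorem E8_s2 (O : List ℕ) (h : E8_Adm (71 :: O)) : E8_Res (71 :: O) := by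
  cases O with
  | nil =>
    exact ⟨[], by simp, Or.inl (by simp)⟩
  | cons d O =>
    have hd : d < 72 := h.2 d (by simp)
    have hp := h.1
    simp only [List.pairwise_cons] at hp
    obtain ⟨h1, h2⟩ := E8_T2 ⟨d, hd⟩ (hp.1 d (by simp))
    have hL6 := E8_lt6 (S := [0, 2, 3, 4, 5]) (by decide) h2
    apply E8_Res_of_map _ hL6
    have hA := E8_Adm_map h _ hL6
    simp only [List.map_cons] at hA ⊢
    rw [E8_fix [0, 2, 3, 4, 5] 71 E8_F2 _ h2, h1] at hA ⊢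
    exact E8_s3 _ hA

theorem cascade (O : List ℕ) (hO : O.Pairwise e6orth) (hb : ∀ o ∈ O, o < 72) (hne : O ≠ []) :
    ∃ L : List ℕ, (∀ i ∈ L, i < 6) ∧
      ((O.map (wAct chevE6 L)).Perm [71] ∨ (O.map (wAct chevE6 L)).Perm [68, 66] ∨
        (O.map (wAct chevE6 L)).Perm [55, 65, 67] ∨ (O.map (wAct chevE6 L)).Perm [42, 53, 37, 46]) := by
  show E8_Res O
  cases O with
  | nil => exact absurd rfl hne
  | cons d O =>
    have h : E8_Adm (d :: O) := ⟨hO, hb⟩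
    have hd : d < 72 := hb d (by simp)
    obtain ⟨h1, h2⟩ := E8_T1 ⟨d, hd⟩
    have hL6 := E8_lt6 (S := [0, 1, 2, 3, 4, 5]) (by decide) h2
    apply E8_Res_of_map _ hL6
    have hA := E8_Adm_map h _ hL6
    simp only [List.map_cons] at hA ⊢
    rw [h1] at hA ⊢
    exact E8_s2 _ hA

end Cfsg.Agent.Lib.Helper88.E6I
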